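import Cfsg.Agent.HZ.Basic
import Cfsg.Agent.LV.Blk.Gen
import Cfsg.Agent.BZ.Lab.Uf

/-!
# HZ / L: height zero and the sum over the elements of odd order (helper83)

`star1` : `χ` has height zero iff `|G| ⟨χ, reg 2 * χ⟩ / χ 1` is a unit; `h0_iff_uf` : the same with `BZ.Lab.uf`.
-/

set_option autoImplicit false

namespace Cfsg.Agent.HZ.L.Hz

open Cfsg Cfsg.Agent.BZ.Lab Cfsg.Agent.Blocks Cfsg.Agent.LV.Blk

variable {G : Type} [Group G] [Fintype G] {M : Ideal AlgInt} {χ : G → ℂ}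

theorem h0_iff_uf (hM : IsPModular 2 M) (hχ : IsIrrCharacter G χ) : H0 M χ ↔ ¬ MemLocalIdeal M (uf 2 χ χ) :=
  have := Local.isPrime_of_isPModular hM
  (h0_iff hM ⟨χ, hχ⟩).symm.trans (boxUf.ht hM (ψ := ⟨χ, hχ⟩) (χ := ⟨χ, hχ⟩) (Basic.sameBlock_refl _)).symm

theorem om_eq_uf (l : ℕ) (χ : G → ℂ) : om χ (reg l * χ) = uf l χ χ := by
  classical
  rw [LV.Blk.om_eq, uf, Finset.sum_div, Finset.sum_filter]
  refine Finset.sum_congr rfl fun y _ => ?_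
  by_cases h : l ∣ orderOf y
  · rw [Pi.mul_apply, reg_of_not h, zero_mul, map_zero, mul_zero, zero_div, if_neg (not_not.2 h)]
  · rw [Pi.mul_apply, reg_of h, one_mul, if_pos h]

/-- **height zero** -/
theorem star1 (hM : IsPModular 2 M) (hχ : IsIrrCharacter G χ) : H0 M χ ↔ ¬ MemLocalIdeal M (om χ (reg 2 * χ)) := by
  rw [om_eq_uf, h0_iff_uf hM hχ]

end Cfsg.Agent.HZ.L.Hz
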